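import Mathlib

/-! The group of paths of a directed graph with a group action, inside a semidirect product of a free group. -/

set_option autoImplicit false

namespace Cfsg.Agent.H9.GraphGroup

open FreeGroup

universe u

variable {A : Type u} [Group A] {V E : Type u} [MulAction A V] [MulAction A E]

/-- action on the free group by permuting letters -/
def act (A : Type u) [Group A] (E : Type u) [MulAction A E] : A →* MulAut (FreeGroup E) where
  toFun a := freeGroupCongr (MulAction.toPerm a)
  map_one' := by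
    ext x
    simp only [freeGroupCongr_apply, MulAut.one_apply]
    have : (⇑(MulAction.toPerm (1 : A) : Equiv.Perm E)) = id := by ext; simp
    rw [this, map.id]
  map_mul' a b := by
    ext x
    simp only [freeGroupCongr_apply, MulAut.mul_apply, map.comp]
    congr 2
    ext y
    simp [mul_smul]

/-- action on words -/
def wsmul (a : A) (L : List (E × Bool)) : List (E × Bool) := L.map fun x => (a • x.1, x.2)

theorem act_mk (a : A) (L : List (E × Bool)) : act A E a (mk L) = mk (wsmul a L) := rfl

theorem isReduced_wsmul (a : A) {L : List (E × Bool)} (h : IsReduced L) : IsReduced (wsmul a L) := by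
  unfold FreeGroup.IsReduced wsmul at *
  rw [List.isChain_map]
  refine h.imp fun x y hxy h' => hxy ?_
  simpa using h'

theorem toWord_act [DecidableEq E] (a : A) (w : FreeGroup E) : (act A E a w).toWord = wsmul a w.toWord := by
  conv_lhs => rw [← mk_toWord (x := w), act_mk, toWord_mk]
  exact (isReduced_wsmul a isReduced_toWord).reduce_eq

theorem norm_act [DecidableEq E] (a : A) (w : FreeGroup E) : (act A E a w).norm = w.norm := by
  simp [FreeGroup.norm, toWord_act, wsmul]

theorem norm_lt_max [DecidableEq E] {u : FreeGroup E} {x : E × Bool} {L : List (E × Bool)}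
    (hu : u.toWord = x :: L) (hL : L ≠ []) (p : FreeGroup E) :
    ((mk [x])⁻¹ * p).norm < max p.norm (u⁻¹ * p).norm := by
  by_cases h : p.toWord.head? = some x
  · obtain ⟨M, hM⟩ := List.head?_eq_some_iff.1 h
    have h1 : (mk [x])⁻¹ * p = mk M := by
      rw [inv_mul_eq_iff_eq_mul, mul_mk, ← mk_toWord (x := p), hM]; rfl
    refine lt_max_of_lt_left ?_
    rw [h1]
    refine lt_of_le_of_lt norm_mk_le ?_
    simp [FreeGroup.norm, hM]
  · refine lt_max_of_lt_right ?_
    have h1 : IsReduced (u⁻¹.toWord ++ p.toWord) := by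
      refine List.IsChain.append isReduced_toWord isReduced_toWord ?_
      intro a ha b hb hab
      rw [toWord_inv, hu, invRev_cons] at ha
      simp only [Option.mem_def] at ha hb
      rw [List.getLast?_append_of_ne_nil _ (by simp [invRev])] at ha
      simp only [invRev, List.map_cons, List.map_nil, List.reverse_cons, List.reverse_nil, List.nil_append,
        List.getLast?_singleton, Option.some.injEq] at ha
      subst ha
      by_contra h2
      apply h
      rw [hb]
      congr 1
      ext
      · exact hab.symm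
      · simp only at h2
        cases hx : x.2 <;> cases hb : b.2 <;> simp_all
    have h2 : (u⁻¹ * p).norm = L.length + 1 + p.norm := by
      rw [FreeGroup.norm, toWord_mul, h1.reduce_eq, List.length_append, toWord_inv, invRev_length, hu]
      rfl
    have h3 := norm_mul_le (mk [x])⁻¹ p
    have h4 : ((mk [x])⁻¹ : FreeGroup E).norm ≤ 1 := by rw [norm_inv_eq]; exact norm_mk_le
    have h5 := List.length_pos_of_ne_nil hL
    omega

variable (src tgt : E → V)

/-- start of a signed edge -/
def st (x : E × Bool) : V := if x.2 then src x.1 else tgt x.1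

/-- end of a signed edge -/
def en (x : E × Bool) : V := if x.2 then tgt x.1 else src x.1

/-- paths -/
def IsPath : V → List (E × Bool) → V → Prop
  | v, [], w => v = w
  | v, x :: L, w => st src tgt x = v ∧ IsPath (en src tgt x) L w

variable {src tgt}

theorem isPath_append {L L' : List (E × Bool)} {u w : V} :
    IsPath src tgt u (L ++ L') w ↔ ∃ v, IsPath src tgt u L v ∧ IsPath src tgt v L' w := by
  induction L generalizing u with
  | nil => simp [IsPath]
  | cons x L ih => simp [IsPath, ih, and_assoc]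

theorem IsPath.invRev {L : List (E × Bool)} {u v : V} (h : IsPath src tgt u L v) :
    IsPath src tgt v (invRev L) u := by
  induction L generalizing u with
  | nil => exact h.symm
  | cons x L ih =>
    rw [invRev_cons, isPath_append]
    refine ⟨_, ih h.2, ?_⟩
    rw [← h.1]
    obtain ⟨e, b⟩ := x
    cases b <;> simp [FreeGroup.invRev, IsPath, st, en]

theorem IsPath.step {L L' : List (E × Bool)} {u v : V} (h : IsPath src tgt u L v) (hs : Red.Step L L') :
    IsPath src tgt u L' v := by
  cases hs with
  | @not L₁ L₂ x b =>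
    rw [isPath_append] at h ⊢
    obtain ⟨w, h1, h2, h3, h4⟩ := h
    refine ⟨w, h1, ?_⟩
    rw [← h2]
    cases b <;> simpa [st, en] using h4

theorem IsPath.red {L L' : List (E × Bool)} {u v : V} (h : IsPath src tgt u L v) (hs : Red L L') :
    IsPath src tgt u L' v := by
  induction hs with
  | refl => exact h
  | tail _ h2 ih => exact ih.step h2

theorem IsPath.smul (hs : ∀ (a : A) e, src (a • e) = a • src e) (ht : ∀ (a : A) e, tgt (a • e) = a • tgt e)
    (a : A) {L : List (E × Bool)} {u v : V} (h : IsPath src tgt u L v) :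
    IsPath src tgt (a • u) (wsmul a L) (a • v) := by
  induction L generalizing u with
  | nil => exact congrArg _ h
  | cons x L ih =>
    obtain ⟨e, b⟩ := x
    refine ⟨?_, ?_⟩
    · rw [← h.1]; cases b <;> simp [st, hs, ht]
    · have := ih h.2
      cases b <;> simpa [en, hs, ht, wsmul] using this

/-- the path group -/
def pathGroup (hs : ∀ (a : A) e, src (a • e) = a • src e) (ht : ∀ (a : A) e, tgt (a • e) = a • tgt e) (v₀ : V) :
    Subgroup (FreeGroup E ⋊[act A E] A) where
  carrier := {g | ∃ L, mk L = g.left ∧ IsPath src tgt v₀ L (g.right • v₀)}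
  one_mem' := ⟨[], rfl, by simp [IsPath]⟩
  mul_mem' := by
    rintro g g' ⟨L, hL, h⟩ ⟨L', hL', h'⟩
    refine ⟨L ++ wsmul g.right L', ?_, isPath_append.2 ⟨_, h, ?_⟩⟩
    · rw [SemidirectProduct.mul_left, ← hL, ← hL', act_mk, mul_mk]
    · rw [SemidirectProduct.mul_right, mul_smul]
      exact h'.smul hs ht _
  inv_mem' := by
    rintro g ⟨L, hL, h⟩
    refine ⟨wsmul g.right⁻¹ (invRev L), ?_, ?_⟩
    · rw [SemidirectProduct.inv_left, ← hL, inv_mk, act_mk]
    · simpa using h.invRev.smul hs ht g.right⁻¹

variable {hs : ∀ (a : A) e, src (a • e) = a • src e} {ht : ∀ (a : A) e, tgt (a • e) = a • tgt e} {v₀ : V}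

theorem isPath_toWord [DecidableEq E] {g : FreeGroup E ⋊[act A E] A} (hg : g ∈ pathGroup hs ht v₀) :
    IsPath src tgt v₀ g.left.toWord (g.right • v₀) := by
  obtain ⟨L, hL, h⟩ := hg
  rw [← hL, toWord_mk]
  exact h.red reduce.red

theorem exists_conj_left_eq_one (htr : ∀ v : V, ∃ a : A, a • v₀ = v) (H : Subgroup (pathGroup hs ht v₀))
    [Finite H] : ∃ g : pathGroup hs ht v₀, ∀ h ∈ H, (g⁻¹ * h * g).1.left = 1 := by
  classical
  have : Fintype H := Fintype.ofFinite H
  let ℓ : pathGroup hs ht v₀ → ℕ := fun g => g.1.left.norm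
  have hℓ : ∀ g h : pathGroup hs ht v₀, ℓ (g⁻¹ * h) = (g.1.left⁻¹ * h.1.left).norm := by
    intro g h
    simp only [ℓ, Subgroup.coe_mul, Subgroup.coe_inv, SemidirectProduct.mul_left, SemidirectProduct.inv_left,
      SemidirectProduct.inv_right]
    rw [← _root_.map_mul, norm_act]
  let r : pathGroup hs ht v₀ → ℕ := fun g => Finset.univ.sup fun h : H => ℓ (g⁻¹ * h)
  have hr : ∀ (g : pathGroup hs ht v₀), ∀ h ∈ H, ℓ (g⁻¹ * h) ≤ r g := fun g h hh =>
    Finset.le_sup (f := fun h : H => ℓ (g⁻¹ * h)) (Finset.mem_univ ⟨h, hh⟩)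
  obtain ⟨g, hg⟩ : ∃ g, ∀ g', r g ≤ r g' := ⟨Function.argmin r, fun g' => Function.argmin_le r g'⟩
  have h1 : ∀ h ∈ H, ℓ (g⁻¹ * h * g) ≤ 1 := by
    intro h hh
    by_contra hlt
    set k := g⁻¹ * h * g with hk
    obtain ⟨x, L, hL⟩ : ∃ x L, k.1.left.toWord = x :: L := by
      cases hw : k.1.left.toWord with
      | nil => simp [ℓ, FreeGroup.norm, hw] at hlt
      | cons x L => exact ⟨x, L, rfl⟩
    have hL' : L ≠ [] := by
      rintro rfl
      simp [ℓ, FreeGroup.norm, hL] at hlt
    have hp := isPath_toWord k.2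
    rw [hL] at hp
    obtain ⟨a, ha⟩ := htr (en src tgt x)
    let m : pathGroup hs ht v₀ := ⟨⟨mk [x], a⟩, [x], rfl, hp.1, ha.symm⟩
    have hlt' : ∀ h' ∈ H, ℓ ((g * m)⁻¹ * h') < r g := by
      intro h' hh'
      have h2 := norm_lt_max hL hL' (g⁻¹ * h').1.left
      have h3 : ℓ ((g * m)⁻¹ * h') = ((mk [x])⁻¹ * (g⁻¹ * h').1.left).norm := by
        rw [mul_inv_rev, mul_assoc, hℓ]
      have h4 : (k.1.left⁻¹ * (g⁻¹ * h').1.left).norm = ℓ (g⁻¹ * (h⁻¹ * h')) := by
        rw [← hℓ, hk]; congr 1; group
      rw [h3]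
      refine lt_of_lt_of_le h2 (max_le (hr g h' hh') ?_)
      rw [h4]
      exact hr g _ (H.mul_mem (H.inv_mem hh) hh')
    have h5 : r (g * m) < r g := by
      refine (Finset.sup_lt_iff ?_).2 fun h' _ => hlt' h' h'.2
      exact lt_of_le_of_lt (Nat.zero_le _) (hlt' 1 H.one_mem)
    exact absurd (hg (g * m)) (not_le.2 h5)
  refine ⟨g, fun h hh => ?_⟩
  by_contra hne
  set k := g⁻¹ * h * g with hk
  have h2 := h1 h hh
  have h3 := h1 (h * h) (H.mul_mem hh hh)
  have h4 : g⁻¹ * (h * h) * g = k * k := by rw [hk]; group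
  rw [h4] at h3
  obtain ⟨x, hx⟩ : ∃ x, k.1.left.toWord = [x] := by
    cases hw : k.1.left.toWord with
    | nil => exact (hne (toWord_eq_nil_iff.1 hw)).elim
    | cons x L =>
      cases L with
      | nil => exact ⟨x, rfl⟩
      | cons y L => simp [ℓ, ← hk, FreeGroup.norm, hw] at h2
  have h5 : IsReduced ([x] ++ wsmul k.1.right [x]) := by simp [wsmul]
  simp only [ℓ, Subgroup.coe_mul, SemidirectProduct.mul_left, FreeGroup.norm, toWord_mul, toWord_act, hx,
    h5.reduce_eq] at h3
  simp [wsmul] at h3

end Cfsg.Agent.H9.GraphGroup
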